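import Cfsg.Agent.H477.HC.Trans

/-!
# S4933 (helper745): a semilinear map commuting with the root elements is a scalar
-/

set_option autoImplicit false

open Cfsg

namespace Cfsg.Agent.H745.HT

open Module Cfsg.Agent.H477.HC Cfsg.Agent.H477.HC.CForm

universe u v

variable {K : Type u} [Field K] {V : Type v} [AddCommGroup V] [Module K V] {F : CForm K V}

/-- the root elements of the isometry group -/
def IsRoot (F : CForm K V) (g : F.iso) : Prop :=
  ∃ c b : V, F.Sing c ∧ F.Sing b ∧ F.B c b = 0 ∧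
    ∀ v, (g : V ≃ₗ[K] V) v = v + F.B v b • c - (F.ε⁻¹ * F.B v c) • b

/-- two independent vectors of a totally singular space and a dual vector -/
theorem exists_frame [FiniteDimensional K V] {W : Submodule K V} (hW : F.TS W) (h2 : 2 ≤ finrank K W) {c : V}
    (hc : c ∈ W) : ∃ b ∈ W, ∃ b' : V, F.Sing b' ∧ F.B c b' = 0 ∧ F.B b b' = 1 := by
  have hlt : Submodule.span K {(⟨c, hc⟩ : W)} < ⊤ := by
    rw [lt_top_iff_ne_top]
    intro h
    have h1 : finrank K (Submodule.span K {(⟨c, hc⟩ : W)}) ≤ 1 := by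
      simpa using finrank_span_le_card (R := K) ({(⟨c, hc⟩ : W)} : Set W)
    rw [h, finrank_top] at h1
    omega
  obtain ⟨f, hf0, hf⟩ := Submodule.exists_le_ker_of_lt_top _ hlt
  have hfc : f ⟨c, hc⟩ = 0 := hf (Submodule.mem_span_singleton_self _)
  obtain ⟨b, hb⟩ : ∃ b : W, f b ≠ 0 := by
    by_contra h
    push Not at h
    exact hf0 (LinearMap.ext h)
  obtain ⟨b', hb', hfb, -⟩ := exists_sing_dual (W' := ⊥) hW (fun w _ w' hw' => by
    rw [(Submodule.mem_bot K).1 hw', F.B_zero_right]) f (fun w hw => by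
    have : w = 0 := Subtype.ext ((Submodule.mem_bot K).1 hw)
    rw [this, map_zero]) hf0
  refine ⟨(f b)⁻¹ • (b : V), W.smul_mem _ b.2, b', hb', ?_, ?_⟩
  · rw [← hfc, hfb]
  · rw [F.B_smul_left, ← hfb, inv_mul_cancel₀ hb]

variable {δ : V ≃+ V} {τ : K ≃+* K}

/-- the vectors of a totally singular space of dimension at least two are eigenvectors -/
theorem line [FiniteDimensional K V] (hδ : ∀ (a : K) v, δ (a • v) = τ a • δ v)
    (hcomm : ∀ g : F.iso, IsRoot F g → ∀ v, δ ((g : V ≃ₗ[K] V) v) = (g : V ≃ₗ[K] V) (δ v)) {W : Submodule K V}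
    (hW : F.TS W) (h2 : 2 ≤ finrank K W) {c : V} (hc : c ∈ W) : ∃ μ : K, δ c = μ • c := by
  obtain ⟨b, hb, b', hb', hcb', hbb'⟩ := exists_frame hW h2 hc
  have hsc := hW.sing hc
  have hsb := hW.sing hb
  have hcb : F.B c b = 0 := hW.2 c hc b hb
  have hbc : F.B b c = 0 := hW.2 b hb c hc
  have hb'c : F.B b' c = 0 := F.B_eq_zero hcb'
  have hx : F.B b' b ≠ 0 := fun h => by
    have := F.B_eq_zero h
    rw [hbb'] at this
    exact one_ne_zero this
  obtain ⟨r₁, hr₁⟩ := F.exists_root hsc hsb hcb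
  obtain ⟨r₂, hr₂⟩ := F.exists_root hsc hb' hcb'
  have E1 : τ (F.B b' b) • δ c = F.B (δ b') b • c - (F.ε⁻¹ * F.B (δ b') c) • b := by
    have h := hcomm r₁ ⟨c, b, hsc, hsb, hcb, hr₁⟩ b'
    rw [hr₁, hr₁, hb'c, mul_zero, zero_smul, sub_zero, map_add, hδ, add_sub_assoc] at h
    exact add_left_cancel h
  have E2 : δ c = F.B (δ b) b' • c - (F.ε⁻¹ * F.B (δ b) c) • b' := by
    have h := hcomm r₂ ⟨c, b', hsc, hb', hcb', hr₂⟩ b
    rw [hr₂, hr₂, hbc, mul_zero, zero_smul, sub_zero, map_add, hδ, add_sub_assoc, hbb', map_one, one_smul] at h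
    exact add_left_cancel h
  have h3 : F.B (δ c) b' = 0 := by
    rw [E2, F.B_sub_left, F.B_smul_left, F.B_smul_left, hcb', hb'.2]
    ring
  have h4 : F.ε⁻¹ * F.B (δ b') c = 0 := by
    have h5 : F.B (τ (F.B b' b) • δ c) b' = 0 := by rw [F.B_smul_left, h3, mul_zero]
    rw [E1, F.B_sub_left, F.B_smul_left, F.B_smul_left, hcb', hbb', mul_zero, zero_sub, mul_one, neg_eq_zero] at h5
    exact h5
  rw [h4, zero_smul, sub_zero] at E1
  have hτ : τ (F.B b' b) ≠ 0 := by
    intro h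
    exact hx (by simpa using h)
  refine ⟨(τ (F.B b' b))⁻¹ * F.B (δ b') b, ?_⟩
  rw [mul_smul, ← E1, smul_smul, inv_mul_cancel₀ hτ, one_smul]

/-- the companion automorphism is trivial -/
theorem tau_eq [FiniteDimensional K V] (hδ : ∀ (a : K) v, δ (a • v) = τ a • δ v)
    (hcomm : ∀ g : F.iso, IsRoot F g → ∀ v, δ ((g : V ≃ₗ[K] V) v) = (g : V ≃ₗ[K] V) (δ v)) {W : Submodule K V}
    (hW : F.TS W) (h2 : 2 ≤ finrank K W) (a : K) : τ a = a := by
  have hne : W ≠ ⊥ := by
    rintro rfl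
    rw [finrank_bot] at h2
    omega
  obtain ⟨c, hc, hc0⟩ := Submodule.exists_mem_ne_zero_of_ne_bot hne
  obtain ⟨b, hb, b', hb', hcb', hbb'⟩ := exists_frame hW h2 hc
  have key : ∀ x y : K, x • c + y • b = 0 → x = 0 ∧ y = 0 := fun x y h => by
    have h1 : F.B (x • c + y • b) b' = 0 := by rw [h, F.B_zero_left]
    rw [F.B_add_left, F.B_smul_left, F.B_smul_left, hcb', hbb', mul_zero, zero_add, mul_one] at h1
    rw [h1, zero_smul, add_zero] at h
    exact ⟨(smul_eq_zero.1 h).resolve_right hc0, h1⟩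
  obtain ⟨α, hα⟩ := line hδ hcomm hW h2 hc
  obtain ⟨β, hβ⟩ := line hδ hcomm hW h2 hb
  have hα0 : α ≠ 0 := by
    rintro rfl
    rw [zero_smul] at hα
    exact hc0 (by simpa using hα)
  have hl : ∀ y : K, τ y * β = α * y := fun y => by
    obtain ⟨μ, hμ⟩ := line hδ hcomm hW h2 (W.add_mem hc (W.smul_mem y hb))
    rw [map_add, hδ, hα, hβ] at hμ
    have h3 : (α - μ) • c + (τ y * β - μ * y) • b = 0 := by
      have : (α - μ) • c + (τ y * β - μ * y) • b = (α • c + τ y • β • b) - μ • (c + y • b) := by module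
      rw [this, hμ, sub_self]
    obtain ⟨h4, h5⟩ := key _ _ h3
    rw [sub_eq_zero.1 h4]
    exact sub_eq_zero.1 h5
  have hb1 : β = α := by
    have := hl 1
    rwa [map_one, one_mul, mul_one] at this
  have := hl a
  rw [hb1, mul_comm] at this
  exact mul_left_cancel₀ hα0 this

end Cfsg.Agent.H745.HT
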