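import Cfsg.Agent.H745.HT.Odd
import Cfsg.Agent.H745.HT.Tau
import Cfsg.Agent.H139.HT.Inv

/-!
# S4933 (helper745), connector (C3): the two constituents of `F.hc c (psf F W₀ (ψ₀ ∘ ρ))` are invariant under the
semisimilarities of `p`-power order, `p` odd
-/

set_option autoImplicit false

open scoped ComplexConjugate
open Cfsg

namespace Cfsg.Agent.H745.HT

open Cfsg.Agent.OddOrderCharacters.Clifford Cfsg.Agent.Characters MulAction Module Cfsg.Agent.H53.HC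
open Cfsg.Agent.H749.Two Cfsg.Agent.H477.HC Cfsg.Agent.H477.HC.CForm Cfsg.Agent.H139.HT

universe u v w

variable {K : Type u} [Field K] {V : Type v} [AddCommGroup V] [Module K V] {F : CForm K V} {γ : V ≃+ V} {τ : K ≃+* K}

/-- conjugation by `γ` on the linear automorphisms -/
def cjL (γ : V ≃+ V) (τ : K ≃+* K) (hs : ∀ (a : K) v, γ (a • v) = τ a • γ v) (g : V ≃ₗ[K] V) : V ≃ₗ[K] V where
  toFun v := γ (g (γ.symm v))
  map_add' x y := by rw [map_add, map_add, map_add]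
  map_smul' a x := by
    rw [RingHom.id_apply, symm_smul hs, map_smul, hs, τ.apply_symm_apply]
  invFun v := γ (g.symm (γ.symm v))
  left_inv v := by
    change γ (g.symm (γ.symm (γ (g (γ.symm v))))) = v
    rw [γ.symm_apply_apply, g.symm_apply_apply, γ.apply_symm_apply]
  right_inv v := by
    change γ (g (γ.symm (γ (g.symm (γ.symm v))))) = v
    rw [γ.symm_apply_apply, g.apply_symm_apply, γ.apply_symm_apply]

theorem symm_B (h : SSim F γ τ) : ∃ l : K, l ≠ 0 ∧ (∀ u v, F.B (γ.symm u) (γ.symm v) = l * τ.symm (F.B u v)) ∧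
    ∀ v, F.Q (γ.symm v) = l * τ.symm (F.Q v) := by
  obtain ⟨l, hl, h1, h2⟩ := h.lam
  have hl' : τ.symm l ≠ 0 := fun h => hl (by simpa using h)
  refine ⟨(τ.symm l)⁻¹, inv_ne_zero hl', fun u v => ?_, fun v => ?_⟩
  · have := h1 (γ.symm u) (γ.symm v)
    rw [γ.apply_symm_apply, γ.apply_symm_apply] at this
    rw [this, map_mul, τ.symm_apply_apply, ← mul_assoc, inv_mul_cancel₀ hl', one_mul]
  · have := h2 (γ.symm v)
    rw [γ.apply_symm_apply] at this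
    rw [this, map_mul, τ.symm_apply_apply, ← mul_assoc, inv_mul_cancel₀ hl', one_mul]

theorem ssim_symm (h : SSim F γ τ) : SSim F γ.symm τ.symm := ⟨fun a v => symm_smul h.smul a v, symm_B h⟩

theorem cjL_mem (h : SSim F γ τ) (g : F.iso) : cjL γ τ h.smul (g : V ≃ₗ[K] V) ∈ F.iso := by
  obtain ⟨l, hl, h1, h2⟩ := h.lam
  rw [F.mem_iso]
  constructor
  · intro u v
    change F.B (γ ((g : V ≃ₗ[K] V) (γ.symm u))) (γ ((g : V ≃ₗ[K] V) (γ.symm v))) = _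
    rw [h1, F.iso_B, ← h1, γ.apply_symm_apply, γ.apply_symm_apply]
  · intro v
    change F.Q (γ ((g : V ≃ₗ[K] V) (γ.symm v))) = _
    rw [h2, F.iso_Q, ← h2, γ.apply_symm_apply]

/-- conjugation by the semisimilarity `γ` -/
def cj (h : SSim F γ τ) : MulAut F.iso where
  toFun g := ⟨cjL γ τ h.smul (g : V ≃ₗ[K] V), cjL_mem h g⟩
  invFun g := ⟨cjL γ.symm τ.symm (ssim_symm h).smul (g : V ≃ₗ[K] V), cjL_mem (ssim_symm h) g⟩
  left_inv g := by
    apply Subtype.ext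
    apply LinearEquiv.ext
    intro v
    change γ.symm (γ ((g : V ≃ₗ[K] V) (γ.symm (γ v)))) = _
    rw [γ.symm_apply_apply, γ.symm_apply_apply]
  right_inv g := by
    apply Subtype.ext
    apply LinearEquiv.ext
    intro v
    change γ (γ.symm ((g : V ≃ₗ[K] V) (γ (γ.symm v)))) = _
    rw [γ.apply_symm_apply, γ.apply_symm_apply]
  map_mul' a b := by
    apply Subtype.ext
    apply LinearEquiv.ext
    intro v
    change γ ((a : V ≃ₗ[K] V) ((b : V ≃ₗ[K] V) (γ.symm v))) =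
      γ ((a : V ≃ₗ[K] V) (γ.symm (γ ((b : V ≃ₗ[K] V) (γ.symm v)))))
    rw [γ.symm_apply_apply]

theorem cj_apply (h : SSim F γ τ) (g : F.iso) (v : V) :
    ((cj h g : F.iso) : V ≃ₗ[K] V) v = γ ((g : V ≃ₗ[K] V) (γ.symm v)) := rfl

theorem inter_cj (h : SSim F γ τ) (g : F.iso) : Inter γ g (cj h g) := fun v => by
  rw [cj_apply, γ.symm_apply_apply]

theorem eq_cj (h : SSim F γ τ) {g g' : F.iso} (hg : Inter γ g g') : g' = cj h g := by
  apply Subtype.ext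
  apply LinearEquiv.ext
  intro v
  rw [cj_apply, ← hg, γ.apply_symm_apply]

theorem cj_pow (h : SSim F γ τ) (n : ℕ) (g : F.iso) (v : V) :
    ((((cj h) ^ n) g : F.iso) : V ≃ₗ[K] V) (γ^[n] v) = γ^[n] ((g : V ≃ₗ[K] V) v) := by
  induction n with
  | zero => rfl
  | succ n ih =>
    rw [Function.iterate_succ_apply', Function.iterate_succ_apply', ← ih, pow_succ', MulAut.mul_apply, cj_apply,
      γ.symm_apply_apply]

theorem cj_pow_one (h : SSim F γ τ) {n : ℕ} {μ : K} (hμ : μ ≠ 0) (hn : ∀ v, γ^[n] v = μ • v) : (cj h) ^ n = 1 := by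
  apply MulEquiv.ext
  intro g
  apply Subtype.ext
  apply LinearEquiv.ext
  intro v
  have h1 := cj_pow h n g v
  rw [hn, hn, map_smul] at h1
  have h2 := congrArg (fun x => μ⁻¹ • x) h1
  simp only [smul_smul, inv_mul_cancel₀ hμ, one_smul] at h2
  exact h2

/-- the power of the companion automorphism -/
theorem tau_pow (hs : ∀ (a : K) v, γ (a • v) = τ a • γ v) (n : ℕ) (a : K) (v : V) :
    γ^[n] (a • v) = (τ ^ n) a • γ^[n] v := by
  induction n with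
  | zero => rfl
  | succ n ih =>
    rw [Function.iterate_succ_apply', Function.iterate_succ_apply', ih, hs, pow_succ']
    rfl

theorem tau_pow_one [Nontrivial V] (hs : ∀ (a : K) v, γ (a • v) = τ a • γ v) {n : ℕ} {μ : K} (hμ : μ ≠ 0)
    (hn : ∀ v, γ^[n] v = μ • v) : τ ^ n = 1 := by
  apply RingEquiv.ext
  intro a
  obtain ⟨v, hv⟩ := exists_ne (0 : V)
  have h1 := tau_pow hs n a v
  rw [hn, hn, smul_smul, smul_smul] at h1
  have h2 : (μ * a - (τ ^ n) a * μ) • v = 0 := by rw [sub_smul, h1, sub_self]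
  have h3 := (smul_eq_zero.1 h2).resolve_right hv
  have h4 : μ * ((τ ^ n) a) = μ * a := by linear_combination -h3
  exact mul_left_cancel₀ hμ h4

/-- the two constituents of an invariant sum -/
theorem ssim_two [Finite F.iso] {n : ℕ} (hn : Odd n) (hγ : SSim F γ τ)
    (hpow : ∃ μ : K, μ ≠ 0 ∧ ∀ v, γ^[n] v = μ • v) {R X₁ X₂ : F.iso → ℂ} (h₁ : IsIrrCharacter F.iso X₁)
    (h₂ : IsIrrCharacter F.iso X₂) (hR : ∀ g, R g = X₁ g + X₂ g) (hinv : ∀ g g', Inter γ g g' → R g' = R g)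
    (g g' : F.iso) (hg : Inter γ g g') : X₁ g' = X₁ g ∧ X₂ g' = X₂ g := by
  obtain ⟨μ, hμ, hv⟩ := hpow
  have := fixed_of_pow (cj hγ) hn (cj_pow_one hγ hμ hv) h₁ h₂ hR fun g => hinv g _ (inter_cj hγ g)
  rw [eq_cj hγ hg]
  exact ⟨this.1 g, this.2 g⟩

/-- invariance under the semisimilarities of `p`-power order modulo scalars -/
def PInv (p : ℕ) (F : CForm K V) (χ : F.iso → ℂ) : Prop :=
  ∀ (γ : V ≃+ V) (τ : K ≃+* K), SSim F γ τ → (∃ (k : ℕ) (μ : K), μ ≠ 0 ∧ ∀ v, γ^[p ^ k] v = μ • v) →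
    ∀ g g', Inter γ g g' → χ g' = χ g

theorem PInv.of_isoInv [Nontrivial V] {p : ℕ} {χ : F.iso → ℂ}
    (h : ∀ τ : K ≃+* K, (∃ k : ℕ, τ ^ (p ^ k) = 1) → IsoInv F τ χ) : PInv p F χ := by
  rintro γ τ hγ ⟨k, μ, hμ, hv⟩ g g' hg
  exact h τ ⟨k, tau_pow_one hγ.smul hμ hv⟩ γ hγ g g' hg

theorem PInv.two [Finite F.iso] {p : ℕ} (hp : Odd p) {R X₁ X₂ : F.iso → ℂ} (h₁ : IsIrrCharacter F.iso X₁)
    (h₂ : IsIrrCharacter F.iso X₂) (hR : ∀ g, R g = X₁ g + X₂ g) (h : PInv p F R) : PInv p F X₁ ∧ PInv p F X₂ := by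
  constructor
  · rintro γ τ hγ ⟨k, μ, hμ, hv⟩ g g' hg
    exact (ssim_two hp.pow hγ ⟨μ, hμ, hv⟩ h₁ h₂ hR (h γ τ hγ ⟨k, μ, hμ, hv⟩) g g' hg).1
  · rintro γ τ hγ ⟨k, μ, hμ, hv⟩ g g' hg
    exact (ssim_two hp.pow hγ ⟨μ, hμ, hv⟩ h₁ h₂ hR (h γ τ hγ ⟨k, μ, hμ, hv⟩) g g' hg).2

section main
variable {X : Type w} [AddCommGroup X] [Module K X] {F' : CForm K X} {j : X →ₗ[K] V} {W₀ : Submodule K V}

/-- **(C3)** -/
theorem hc_two [Finite V] [FiniteDimensional K V] [FiniteDimensional K X] [Nontrivial V] (h : Cmp F F' j W₀) {k : ℕ}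
    [Fintype (F.Om k)] {p : ℕ} (hp : Odd p) {c : GL (Fin k) K → ℂ} (hcf : IsClassFunction _ c)
    (hc : ∀ τ : K ≃+* K, (∃ a : ℕ, τ ^ (p ^ a) = 1) →
      ∀ A : GL (Fin k) K, c (Matrix.GeneralLinearGroup.map (τ : K →+* K) A) = c A)
    (hW₀ : W₀ ∈ F.Om k) {ρ : stabW F.iso.subtype W₀ →* F'.iso}
    (hρ1 : ∀ (g : stabW F.iso.subtype W₀) y, ((g : F.iso) : V ≃ₗ[K] V) (j y) - j ((ρ g : X ≃ₗ[K] X) y) ∈ W₀)
    {ψ₀ : F'.iso → ℂ} (hcl : IsClassFunction _ ψ₀)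
    (hψ : ∀ τ : K ≃+* K, (∃ a : ℕ, τ ^ (p ^ a) = 1) → IsoInv F' τ ψ₀) {X₁ X₂ : F.iso → ℂ}
    (h₁ : IsIrrCharacter F.iso X₁) (h₂ : IsIrrCharacter F.iso X₂)
    (hR : ∀ g, F.hc c (psf F W₀ (ψ₀ ∘ ρ)) g = X₁ g + X₂ g) : PInv p F X₁ ∧ PInv p F X₂ := by
  have hfin' : Finite (V ≃ₗ[K] V) := Finite.of_injective (fun g : V ≃ₗ[K] V => (g : V → V)) DFunLike.coe_injective
  have hfin : Finite F.iso := inferInstance
  exact PInv.two hp h₁ h₂ hR (PInv.of_isoInv fun τ hτ => hc_inv h hcf (hc τ hτ) hW₀ hρ1 hcl (hψ τ hτ))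

end main

end Cfsg.Agent.H745.HT
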