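import Cfsg.Agent.Characters.Core

/-!
# S4933 (helper745): the two constituents of an invariant character are invariant under automorphisms of odd order
-/

set_option autoImplicit false

open Cfsg

namespace Cfsg.Agent.H745.HT

open Cfsg.Agent.Characters

universe u

variable {I : Type u} [Group I] [Finite I]

theorem isIrr_aut (β : MulAut I) {X : I → ℂ} (h : IsIrrCharacter I X) : IsIrrCharacter I (fun g => X (β g)) :=
  Core.isIrr_comp β.toMonoidHom β.surjective h

theorem eq_or_eq {Y Z X₁ X₂ : I → ℂ} (hY : IsIrrCharacter I Y) (hZ : IsIrrCharacter I Z)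
    (h₁ : IsIrrCharacter I X₁) (h₂ : IsIrrCharacter I X₂) (h : ∀ g, Y g + Z g = X₁ g + X₂ g) : Y = X₁ ∨ Y = X₂ := by
  classical
  have : Fintype I := Fintype.ofFinite I
  by_contra hcon
  push Not at hcon
  have e : Y + Z = X₁ + X₂ := funext h
  have h3 : classInner Y (Y + Z) = 0 := by
    rw [e, Core.classInner_add_right, Core.classInner_irr_ne hY h₁ hcon.1, Core.classInner_irr_ne hY h₂ hcon.2, add_zero]
  rw [Core.classInner_add_right, Core.classInner_irr_self hY, Core.classInner_irr hY hZ] at h3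
  split_ifs at h3 <;> norm_num at h3

/-- the invariance of the two constituents -/
theorem fixed_of_sum (β : MulAut I) {n : ℕ} (hn : Odd n) {X₁ X₂ : I → ℂ} (h₁ : IsIrrCharacter I X₁)
    (h₂ : IsIrrCharacter I X₂) (hR : ∀ g, X₁ (β g) + X₂ (β g) = X₁ g + X₂ g) (hβ : ∀ g, X₁ ((β ^ n) g) = X₁ g) :
    (∀ g, X₁ (β g) = X₁ g) ∧ ∀ g, X₂ (β g) = X₂ g := by
  have key : ∀ g, X₁ (β g) = X₁ g := by
    rcases eq_or_eq (isIrr_aut β h₁) (isIrr_aut β h₂) h₁ h₂ hR with h | h
    · exact fun g => congrFun h g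
    · have h12 : ∀ g, X₁ (β g) = X₂ g := fun g => congrFun h g
      have h21 : ∀ g, X₂ (β g) = X₁ g := fun g => by
        have := hR g
        rw [h12 g] at this
        linear_combination this
      have hsq : ∀ (k : ℕ) g, X₁ ((β ^ (2 * k)) g) = X₁ g := fun k => by
        induction k with
        | zero => intro g; simp
        | succ k ih =>
          intro g
          have e : (β ^ (2 * (k + 1))) g = β (β ((β ^ (2 * k)) g)) := by
            rw [show 2 * (k + 1) = 1 + (1 + 2 * k) by ring, pow_add, pow_add, pow_one]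
            rfl
          rw [e, h12, h21, ih]
      obtain ⟨k, rfl⟩ := hn
      have hX : ∀ g, X₂ g = X₁ g := fun g => by
        have e : (β ^ (2 * k + 1)) g = β ((β ^ (2 * k)) g) := by
          rw [show 2 * k + 1 = 1 + 2 * k by ring, pow_add, pow_one]
          rfl
        have h3 := hβ g
        rw [e, h12] at h3
        -- `X₂ (β^(2k) g) = X₁ g`; `X₂ = X₁ ∘ β`
        have h4 : X₂ ((β ^ (2 * k)) g) = X₂ g := by
          rw [← h12, ← h12]
          have e2 : β ((β ^ (2 * k)) g) = (β ^ (2 * k)) (β g) := by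
            show (β * β ^ (2 * k)) g = (β ^ (2 * k) * β) g
            rw [← pow_succ', ← pow_succ]
          rw [e2, hsq]
        rw [h4] at h3
        exact h3
      exact fun g => by rw [h12, hX]
  refine ⟨key, fun g => ?_⟩
  have := hR g
  rw [key g] at this
  linear_combination this

/-- the form with the order of `β` -/
theorem fixed_of_pow (β : MulAut I) {n : ℕ} (hn : Odd n) (hβ : β ^ n = 1) {R X₁ X₂ : I → ℂ} (h₁ : IsIrrCharacter I X₁)
    (h₂ : IsIrrCharacter I X₂) (hR : ∀ g, R g = X₁ g + X₂ g) (hinv : ∀ g, R (β g) = R g) :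
    (∀ g, X₁ (β g) = X₁ g) ∧ ∀ g, X₂ (β g) = X₂ g :=
  fixed_of_sum β hn h₁ h₂ (fun g => by rw [← hR, ← hR, hinv]) (fun g => by rw [hβ]; rfl)

/-- the form with the order of `β` modulo the inner automorphisms -/
theorem fixed_of_inn (β : MulAut I) {n : ℕ} (hn : Odd n) {a : I} (hβ : β ^ n = MulAut.conj a) {R X₁ X₂ : I → ℂ}
    (h₁ : IsIrrCharacter I X₁) (h₂ : IsIrrCharacter I X₂) (hR : ∀ g, R g = X₁ g + X₂ g) (hinv : ∀ g, R (β g) = R g) :
    (∀ g, X₁ (β g) = X₁ g) ∧ ∀ g, X₂ (β g) = X₂ g :=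
  fixed_of_sum β hn h₁ h₂ (fun g => by rw [← hR, ← hR, hinv]) (fun g => by
    rw [hβ]
    exact Core.isIrr_isClassFunction h₁ g a)

end Cfsg.Agent.H745.HT
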